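import Mathlib
import Cfsg.Agent.Lib.Helper30.CTIStmt
import Cfsg.Agent.Lib.Helper39.CTPSL
import Cfsg.Agent.Lib.Helper38.SLCard

/-!
# S4064, piece ENDG (helper94)

`SL₂(F) × A` with trivial centre and order divisible by 4 is `PSL₂(GaloisField 2 n)`, `n ≥ 2`.
-/

set_option autoImplicit false

namespace Cfsg.Agent.Lib.Helper94.CTIENDG

open Cfsg.Agent.Lib.Helper30.CTIStmt

universe u

/-- `SL₂` along a ring isomorphism -/
noncomputable def slEquiv {R S : Type*} [CommRing R] [CommRing S] (e : R ≃+* S) :
    Matrix.SpecialLinearGroup (Fin 2) R ≃* Matrix.SpecialLinearGroup (Fin 2) S where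
  toFun := Matrix.SpecialLinearGroup.map e.toRingHom
  invFun := Matrix.SpecialLinearGroup.map e.symm.toRingHom
  left_inv A := by
    apply Subtype.ext
    ext i j
    simp
  right_inv A := by
    apply Subtype.ext
    ext i j
    simp
  map_mul' A B := map_mul _ A B

theorem main : ENDG.{u} := by
  intro G _ _ hZ h4 ⟨F, _, _, A, _, _, hchar, hodd, ⟨e⟩⟩
  -- `A` is trivial
  have hA : ∀ a : A, a = 1 := by
    intro a
    have hc : e.symm (1, a) ∈ Subgroup.center G := by
      rw [Subgroup.mem_center_iff]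
      intro g
      apply e.injective
      rw [map_mul, map_mul, MulEquiv.apply_symm_apply]
      apply Prod.ext
      · simp
      · simp [mul_comm]
    rw [hZ, Subgroup.mem_bot] at hc
    have h1 : ((1 : Matrix.SpecialLinearGroup (Fin 2) F), a) = 1 := by
      have := congrArg e hc
      rwa [MulEquiv.apply_symm_apply, map_one] at this
    exact congrArg Prod.snd h1
  let _ : Unique A := ⟨⟨1⟩, hA⟩
  have h2 : (2 : F) = 0 := by
    have := CharP.cast_eq_zero F 2
    exact_mod_cast this
  obtain ⟨n, -, hn⟩ := FiniteField.card F 2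
  have hcardG : Nat.card G = Fintype.card F * (Fintype.card F ^ 2 - 1) := by
    rw [Nat.card_congr (e.trans MulEquiv.prodUnique).toEquiv,
      Cfsg.Agent.Lib.Helper38.SLCard.card_SL2]
  have hn2 : 2 ≤ (n : ℕ) := by
    by_contra hcon
    have hn1 : (n : ℕ) = 1 := by have := n.pos; omega
    rw [hn1, pow_one] at hn
    rw [hcardG, hn] at h4
    norm_num at h4
  refine ⟨n, hn2, ⟨?_⟩⟩
  haveI : Fintype (GaloisField 2 (n : ℕ)) := Fintype.ofFinite _
  have hcard : Fintype.card F = Fintype.card (GaloisField 2 (n : ℕ)) := by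
    rw [hn, ← Nat.card_eq_fintype_card, GaloisField.card 2 n n.ne_zero]
  have h2' : (2 : GaloisField 2 (n : ℕ)) = 0 := by
    have := CharP.cast_eq_zero (GaloisField 2 (n : ℕ)) 2
    exact_mod_cast this
  exact (e.trans MulEquiv.prodUnique).trans
    ((slEquiv (FiniteField.ringEquivOfCardEq hcard)).trans
      ((QuotientGroup.quotientBot).symm.trans
        (QuotientGroup.quotientMulEquivOfEq
          (Cfsg.Agent.Lib.Helper39.CTPSL.center_eq_bot h2').symm)))

end Cfsg.Agent.Lib.Helper94.CTIENDG
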