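import Mathlib
import Cfsg.Agent.Lib.Helper30.CTIStmt
import Cfsg.Agent.Lib.Helper5.SL2Card

/-!
# S4064, piece PSLCARD (helper94, second seat)
-/

set_option autoImplicit false

namespace Cfsg.Agent.Lib.Helper94.CTIPSLCARD

open Cfsg.Agent.Lib.Helper30.CTIStmt

theorem main : PSLCARD := by
  intro F _ _
  exact Cfsg.Agent.Lib.Helper5.SL2Card.card_PSL_two rfl

end Cfsg.Agent.Lib.Helper94.CTIPSLCARD
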