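import Mathlib
import Cfsg.Agent.Lib.Helper7.ReeSolvStmt

/-!
# S2361, piece THREE3 (helper94)

Normalizers of nontrivial 3-subgroups of the small Ree groups lie in Sylow 3-normalizers.
-/

set_option autoImplicit false

namespace Cfsg.Agent.Lib.Helper94.RSTHREE3

open Cfsg.Agent.Lib.Helper42.ReeSpStmt Cfsg.Agent.Lib.Helper18.ReeHallStmt
open Cfsg.Agent.Lib.Helper7.ReeSolvStmt

universe u v

theorem mem_sylow_smul {G : Type u} [Group G] {p : ℕ} (x : G) (P : Sylow p G) (h : G) :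
    h ∈ ((x • P : Sylow p G) : Subgroup G) ↔ x⁻¹ * h * x ∈ (P : Subgroup G) := by
  rw [Sylow.coe_subgroup_smul, Subgroup.mem_pointwise_smul_iff_inv_smul_mem, MulAut.smul_def,
    ← map_inv, MulAut.conj_apply, inv_inv]

/-- a subgroup of 3-power order `q ^ 3` in a group of order `q³(q-1)(q³+1)` is a Sylow
3-subgroup -/
theorem sylow_of_card {G : Type u} [Group G] [Finite G] (U : Subgroup G) (m : ℕ)
    (hG : Nat.card G = qq m ^ 3 * (qq m - 1) * (qq m ^ 3 + 1)) (hU : Nat.card U = qq m ^ 3) :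
    ∃ Q : Sylow 3 G, U = (Q : Subgroup G) := by
  have : Fact (Nat.Prime 3) := ⟨Nat.prime_three⟩
  have hU3 : IsPGroup 3 U := IsPGroup.of_card (n := (2 * m + 1) * 3) (by rw [hU, qq, ← pow_mul])
  obtain ⟨Q, hUQ⟩ := hU3.exists_le_sylow
  have hq3 : 3 ∣ qq m := dvd_pow_self 3 (by omega)
  have hqpos : 0 < qq m := pow_pos (by norm_num) _
  have hQcard : Nat.card (Q : Subgroup G) ∣ qq m ^ 3 := by
    obtain ⟨k, hk⟩ := IsPGroup.iff_card.mp Q.isPGroup'
    have hdvd : Nat.card (Q : Subgroup G) ∣ Nat.card G := Subgroup.card_subgroup_dvd_card _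
    rw [hG, mul_assoc] at hdvd
    refine Nat.Coprime.dvd_of_dvd_mul_right ?_ hdvd
    rw [hk]
    apply Nat.Coprime.pow_left
    rw [Nat.Prime.coprime_iff_not_dvd Nat.prime_three, Nat.Prime.dvd_mul Nat.prime_three]
    rintro (h | h)
    · obtain ⟨t, ht⟩ := hq3
      omega
    · have h3 : 3 ∣ qq m ^ 3 := dvd_pow hq3 (by norm_num)
      have h1 : 3 ∣ 1 := (Nat.dvd_add_right h3).mp h
      omega
  refine ⟨Q, Subgroup.eq_of_le_of_card_ge hUQ ?_⟩
  rw [hU]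
  exact Nat.le_of_dvd (pow_pos hqpos 3) hQcard

theorem main : Three3.{u, v} := by
  intro G _ _ U H A K _ _ m hAx M hM hM3
  have : Fact (Nat.Prime 3) := ⟨Nat.prime_three⟩
  obtain ⟨Q, hUQ⟩ := sylow_of_card U m hAx.card hAx.cardU
  obtain ⟨P', hMP⟩ := hM3.exists_le_sylow
  obtain ⟨x, hx⟩ := MulAction.exists_smul_eq G Q P'
  refine ⟨P', fun g hg => ?_⟩
  obtain ⟨u, huM, hu1⟩ : ∃ u ∈ M, u ≠ 1 := by
    by_contra hcon
    push Not at hcon
    exact hM ((Subgroup.eq_bot_iff_forall M).mpr hcon)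
  have hmemP : ∀ h : G, h ∈ (P' : Subgroup G) ↔ x⁻¹ * h * x ∈ U := by
    intro h
    rw [← hx, hUQ, mem_sylow_smul]
  have hgM : g * u * g⁻¹ ∈ M := (Subgroup.mem_normalizer_iff.mp hg u).mp huM
  have hti := hAx.ti (x⁻¹ * g * x) ⟨x⁻¹ * u * x, (hmemP u).mp (hMP huM), ?_, ?_⟩
  · apply Subgroup.mem_normalizer_fintype
    intro n hn
    have hn' : n ∈ (P' : Subgroup G) := hn
    have h1 := hti _ ((hmemP n).mp hn')
    show g * n * g⁻¹ ∈ (P' : Subgroup G)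
    rw [hmemP]
    have e : x⁻¹ * (g * n * g⁻¹) * x = x⁻¹ * g * x * (x⁻¹ * n * x) * (x⁻¹ * g * x)⁻¹ := by
      group
    rw [e]
    exact h1
  · intro h
    apply hu1
    have e : u = x * (x⁻¹ * u * x) * x⁻¹ := by group
    rw [e, h]
    group
  · have e : x⁻¹ * g * x * (x⁻¹ * u * x) * (x⁻¹ * g * x)⁻¹ = x⁻¹ * (g * u * g⁻¹) * x := by
      group
    rw [e]
    exact (hmemP _).mp (hMP hgM)

end Cfsg.Agent.Lib.Helper94.RSTHREE3
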