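import Mathlib
import Cfsg.Agent.Lib.Helper44.SPStmt

/-!
# S2720, piece BLKB (helper94)

Blocks of dimension `2 k₁`, `k₁` odd: the commutator of an isometry inverting `S` with a
similarity commuting with `S` of non-square multiplier.
-/

set_option autoImplicit false

namespace Cfsg.Agent.Lib.Helper94.SPBLKB

open Matrix
open Cfsg.Agent.Lib.Helper44.QSpace Cfsg.Agent.Lib.Helper44.OGroup Cfsg.Agent.Lib.Helper44.OMat
open Cfsg.Agent.Lib.Helper45.OmegaAut Cfsg.Agent.Lib.Helper45.OmegaAutPsi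
open Cfsg.Agent.Lib.Helper45.OmegaAutMain Cfsg.Agent.Lib.Helper45.OmegaInndiag
open Cfsg.Agent.Lib.Helper44.SPStmt

universe u

/-- group theory: `a` inverts `t`, `d` commutes with `t`: the commutator commutes with `t`. -/
theorem comm_commutes {G : Type*} [Group G] {a d t : G} (ha : a * t = t⁻¹ * a)
    (hd : d * t = t * d) : (a * (d * (a⁻¹ * d⁻¹))) * t = t * (a * (d * (a⁻¹ * d⁻¹))) := by
  have ha0 : SemiconjBy a t t⁻¹ := ha
  have hd0 : SemiconjBy d t t := hd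
  have ha' : SemiconjBy a t⁻¹ t := by simpa using ha0.inv_right
  have hai : SemiconjBy a⁻¹ t t⁻¹ := ha'.inv_symm_left
  have hdi : SemiconjBy d⁻¹ t t := hd0.inv_symm_left
  have hd' : SemiconjBy d t⁻¹ t⁻¹ := hd0.inv_right
  exact (ha'.mul_left (hd'.mul_left (hai.mul_left hdi))).eq

theorem main (hInv : InvEx.{u}) (hDet : InvDet.{u}) (hSim : SimEx.{u})
    (hComm : Cfsg.Agent.Lib.Helper44.SMStmt.Comm.{u}) (hCL : CommList.{u}) : BlockOdd.{u} := by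
  intro F _ _ ι _ _ Q h2 hS S r hodd hrF hSr hQS hfix k₁ hcard hk₁
  have hr1 : 1 ≤ r := hodd.pos
  have hS1 : S * S ^ (r - 1) = 1 := by rw [← pow_succ', Nat.sub_add_cancel hr1, hSr]
  have hS2 : S ^ (r - 1) * S = 1 := by rw [← pow_succ, Nat.sub_add_cancel hr1, hSr]
  obtain ⟨t, ht⟩ : ∃ t : GL ι F, ((t : GL ι F) : Matrix ι ι F) = S :=
    ⟨⟨S, S ^ (r - 1), hS1, hS2⟩, rfl⟩
  have htiso : t ∈ Cfsg.isometryGroup F ⇑Q := fun u _ => by
    show Q ((t : Matrix ι ι F) *ᵥ u) = Q u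
    rw [ht]; exact hQS u
  have htr : t ^ r = 1 := by
    apply Units.ext
    rw [Units.val_pow_eq_pow_val, ht, hSr, Units.val_one]
  obtain ⟨s, hs⟩ : ∃ s : ↥(Cfsg.isometryGroup F ⇑Q), (s : GL ι F) = t := ⟨⟨t, htiso⟩, rfl⟩
  have hsr : s ^ r = 1 := by
    apply Subtype.ext
    rw [Subgroup.coe_pow, hs, htr, Subgroup.coe_one]
  obtain ⟨g, hg⟩ := hInv F ι Q hS s r hodd hrF hsr
  have hfix' : ∀ v : ι → F, ((s : GL ι F) : Matrix ι ι F) *ᵥ v = v → v = 0 := by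
    intro v hv
    rw [hs, ht] at hv
    exact hfix v hv
  have hdetg := hDet F ι Q h2 hS k₁ hcard s g r hodd hsr hfix' hg
  rw [hk₁.neg_one_pow] at hdetg
  obtain ⟨k, rfl⟩ : ∃ k, k₁ = k + 1 := ⟨k₁ - 1, by have := hk₁.pos; omega⟩
  obtain ⟨g₀, hg₀⟩ := hSim F ι Q h2 hS k hcard
  have hne : Nonempty ι := by rw [← Fintype.card_pos_iff]; omega
  have hnt : Nontrivial (ι → F) := inferInstance
  obtain ⟨v₀, hv₀⟩ := exists_ne_zero hS
  obtain ⟨s', hs'⟩ : ∃ s' : ↥(Cfsg.Geo.quadSimilarityGroup (F := F) ⇑Q), (s' : GL ι F) = t :=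
    ⟨⟨t, iso_le_GO ⇑Q htiso⟩, rfl⟩
  have hs'r : s' ^ r = 1 := by
    apply Subtype.ext
    rw [Subgroup.coe_pow, hs', htr, Subgroup.coe_one]
  have hs'iso : (s' : GL ι F) ∈ Cfsg.isometryGroup F ⇑Q := by rw [hs']; exact htiso
  obtain ⟨δ, hδs, hδmu⟩ := hComm F ι Q hS v₀ hv₀ s' g₀ hs'iso r hodd hrF hs'r
  obtain ⟨vs, hvs1, hvs2, hvs3, hvs4⟩ := hCL F ι Q h2 hS g δ hdetg (by rw [hδmu]; exact hg₀)
  refine ⟨vs, hvs1, hvs2, hvs3, ?_⟩
  -- the commutator commutes with `t`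
  have ha : (g : GL ι F) * t = t⁻¹ * (g : GL ι F) := by
    have h := congrArg (fun z : ↥(Cfsg.isometryGroup F ⇑Q) => (z : GL ι F)) hg
    simp only [Subgroup.coe_mul, Subgroup.coe_inv, hs] at h
    exact h
  have hd : (δ : GL ι F) * t = t * (δ : GL ι F) := by
    have h := congrArg (fun z : ↥(Cfsg.Geo.quadSimilarityGroup (F := F) ⇑Q) => (z : GL ι F)) hδs
    simp only [Subgroup.coe_mul, hs'] at h
    exact h
  have hc := comm_commutes ha hd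
  have hmat : ((g : GL ι F) : Matrix ι ι F) * (((δ : GL ι F) : Matrix ι ι F) *
      ((((g : GL ι F)⁻¹ : GL ι F) : Matrix ι ι F) *
      ((((δ : GL ι F)⁻¹ : GL ι F) : Matrix ι ι F) * S))) =
      S * (((g : GL ι F) : Matrix ι ι F) * (((δ : GL ι F) : Matrix ι ι F) *
      ((((g : GL ι F)⁻¹ : GL ι F) : Matrix ι ι F) *
      (((δ : GL ι F)⁻¹ : GL ι F) : Matrix ι ι F)))) := by
    have h := congrArg (fun z : GL ι F => (z : Matrix ι ι F)) hc
    simp only [Units.val_mul, ht] at h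
    rw [← h]
    simp only [mul_assoc]
  intro x
  rw [hvs4, hvs4]
  show ((g : GL ι F) : Matrix ι ι F) *ᵥ (((δ : GL ι F) : Matrix ι ι F) *ᵥ
      ((((g : GL ι F)⁻¹ : GL ι F) : Matrix ι ι F) *ᵥ
      ((((δ : GL ι F)⁻¹ : GL ι F) : Matrix ι ι F) *ᵥ (S *ᵥ x)))) =
      S *ᵥ (((g : GL ι F) : Matrix ι ι F) *ᵥ (((δ : GL ι F) : Matrix ι ι F) *ᵥ
      ((((g : GL ι F)⁻¹ : GL ι F) : Matrix ι ι F) *ᵥ
      ((((δ : GL ι F)⁻¹ : GL ι F) : Matrix ι ι F) *ᵥ x))))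
  simp only [Matrix.mulVec_mulVec]
  rw [hmat]

end Cfsg.Agent.Lib.Helper94.SPBLKB
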